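import Cfsg.Agent.H457.Bs.Ann

/-!
# S5717, linear groups: the points given by `TBase`
-/

set_option autoImplicit false

open Subgroup

namespace Cfsg.Agent.H457.Bs

open Cfsg.Agent.H830.B57

variable {p : ℕ} [Fact p.Prime] {V : Type} [AddCommGroup V] [Module (ZMod p) V]

theorem mul_app (x y : V ≃ₗ[ZMod p] V) (v : V) : (x * y) v = x (y v) := rfl

/-- the elements of `E` fixing the annihilator of `u` -/
def StA (E : Subgroup (V ≃ₗ[ZMod p] V)) (u : V) : Subgroup E where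
  carrier := {e | SameAnn E u ((e : V ≃ₗ[ZMod p] V) u)}
  one_mem' := fun _ _ => Iff.rfl
  mul_mem' := by
    intro e f he hf a ha
    have h1 := he a ha
    have h2 := hf (a * ((e : V ≃ₗ[ZMod p] V) : V →ₗ[ZMod p] V)) (mul_mem ha (mem_RR e.2))
    exact h1.trans h2
  inv_mem' := by
    intro e he a ha
    have h1 := he (a * (((e⁻¹ : E) : V ≃ₗ[ZMod p] V) : V →ₗ[ZMod p] V)) (mul_mem ha (mem_RR (e⁻¹).2))
    rw [Module.End.mul_apply, Module.End.mul_apply] at h1
    have h2 : ((((e⁻¹ : E) : V ≃ₗ[ZMod p] V) : V →ₗ[ZMod p] V)) ((e : V ≃ₗ[ZMod p] V) u) = u := inv_app _ u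
    rw [h2] at h1
    exact h1.symm

theorem mem_StA {E : Subgroup (V ≃ₗ[ZMod p] V)} {u : V} {e : E} :
    e ∈ StA E u ↔ SameAnn E u ((e : V ≃ₗ[ZMod p] V) u) := Iff.rfl

theorem pure_smul {E : Subgroup (V ≃ₗ[ZMod p] V)} {u : V} (hu : Pure E u) (e : E) :
    Pure E ((e : V ≃ₗ[ZMod p] V) u) := by
  refine ⟨fun h => hu.1 (((e : V ≃ₗ[ZMod p] V).map_eq_zero_iff).1 h), fun a ha hne => ?_⟩
  obtain ⟨b, hb, h⟩ := hu.2 (a * ((e : V ≃ₗ[ZMod p] V) : V →ₗ[ZMod p] V)) (mul_mem ha (mem_RR e.2)) hne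
  refine ⟨((e : V ≃ₗ[ZMod p] V) : V →ₗ[ZMod p] V) * b, mul_mem (mem_RR e.2) hb, ?_⟩
  rw [Module.End.mul_apply]
  exact congrArg (e : V ≃ₗ[ZMod p] V) h

theorem center_le_StA {E : Subgroup (V ≃ₗ[ZMod p] V)} {u : V} : center E ≤ StA E u := by
  intro z hz a ha
  have hzc : ∀ x ∈ E, ∀ y ∈ Subgroup.zpowers (z : V ≃ₗ[ZMod p] V), x * y = y * x := by
    intro x hx y hy
    obtain ⟨n, rfl⟩ := Subgroup.mem_zpowers_iff.1 hy
    have h1 : Commute (x : V ≃ₗ[ZMod p] V) (z : V ≃ₗ[ZMod p] V) :=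
      congrArg Subtype.val (Subgroup.mem_center_iff.1 hz ⟨x, hx⟩)
    exact h1.zpow_right n
  have h1 : a * ((z : V ≃ₗ[ZMod p] V) : V →ₗ[ZMod p] V) = ((z : V ≃ₗ[ZMod p] V) : V →ₗ[ZMod p] V) * a :=
    comm_RR hzc ha (mem_RR (Subgroup.mem_zpowers _))
  have h2 : a ((z : V ≃ₗ[ZMod p] V) u) = (z : V ≃ₗ[ZMod p] V) (a u) := LinearMap.congr_fun h1 u
  rw [h2]
  exact ⟨fun h => by rw [h, map_zero], fun h => ((z : V ≃ₗ[ZMod p] V).map_eq_zero_iff).1 h⟩

/-- a group without fixed annihilator is not commutative -/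
theorem comm_of_StA [Finite V] {E : Subgroup (V ≃ₗ[ZMod p] V)} (hE : Hg E) {u : V} (hu : Pure E u)
    (h : StA E u = ⊤) : ∀ x ∈ E, ∀ y ∈ E, x * y = y * x := by
  have h1 : ∀ b ∈ RR E, ∀ a ∈ RR E, a u = 0 → a (b u) = 0 := by
    intro b hb
    induction hb using Algebra.adjoin_induction with
    | mem b hb =>
      obtain ⟨e, he, rfl⟩ := hb
      intro a ha h0
      have : (⟨e, he⟩ : E) ∈ StA E u := by rw [h]; exact Subgroup.mem_top _
      exact (this a ha).1 h0
    | algebraMap r =>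
      intro a ha h0
      rw [Module.algebraMap_end_apply, map_smul, h0, smul_zero]
    | add b c _ _ hb hc =>
      intro a ha h0
      rw [LinearMap.add_apply, map_add, hb a ha h0, hc a ha h0, add_zero]
    | mul b c hb' _ hb hc =>
      intro a ha h0
      have := hc (a * b) (mul_mem ha hb') (hb a ha h0)
      exact this
  have h2 : ∀ a ∈ RR E, a u = 0 → a = 0 := fun a ha h0 => hE.faithful u hu a ha fun b hb => h1 b hb a ha h0
  have hinv : ∀ a : RR E, a ≠ 0 → ∃ b : RR E, b * a = 1 := by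
    intro a ha
    have h3 : (a : Module.End (ZMod p) V) u ≠ 0 := fun h0 => ha (Subtype.ext (h2 a a.2 h0))
    obtain ⟨b, hb, hbu⟩ := hu.2 a a.2 h3
    refine ⟨⟨b, hb⟩, Subtype.ext ?_⟩
    have := h2 (b * a - 1) (sub_mem (mul_mem hb a.2) (one_mem _)) (by
      rw [LinearMap.sub_apply, Module.End.mul_apply, Module.End.one_apply, hbu, sub_self])
    exact sub_eq_zero.1 this
  have hfin : Finite (Module.End (ZMod p) V) :=
    Finite.of_injective (fun f : Module.End (ZMod p) V => (f : V → V)) DFunLike.coe_injective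
  have hnt : Nontrivial (RR E) := by
    refine ⟨⟨1, 0, fun h => hu.1 ?_⟩⟩
    have h3 : (1 : Module.End (ZMod p) V) = 0 := congrArg Subtype.val h
    have := LinearMap.congr_fun h3 u
    simpa using this
  have hnz : NoZeroDivisors (RR E) := by
    refine ⟨fun {a b} hab => ?_⟩
    by_cases ha : a = 0
    · exact Or.inl ha
    · obtain ⟨c, hc⟩ := hinv a ha
      right
      calc b = (c * a) * b := by rw [hc, one_mul]
        _ = c * (a * b) := mul_assoc _ _ _
        _ = 0 := by rw [hab, mul_zero]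
  have hdom : IsDomain (RR E) := NoZeroDivisors.to_isDomain _
  have hfield := Finite.isDomain_to_isField (RR E)
  intro x hx y hy
  have := hfield.mul_comm ⟨_, mem_RR hx⟩ ⟨_, mem_RR hy⟩
  have h4 : (x : V →ₗ[ZMod p] V) * (y : V →ₗ[ZMod p] V) = (y : V →ₗ[ZMod p] V) * (x : V →ₗ[ZMod p] V) :=
    congrArg Subtype.val this
  ext v
  exact LinearMap.congr_fun h4 v

section conj

variable {E : Subgroup (V ≃ₗ[ZMod p] V)} {x : V ≃ₗ[ZMod p] V}

/-- conjugation by an element normalising `E` -/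
def cjE (hx : ∀ y, y ∈ E ↔ x * y * x⁻¹ ∈ E) : MulAut E where
  toFun e := ⟨x * e * x⁻¹, (hx e).1 e.2⟩
  invFun e := ⟨x⁻¹ * e * x, (hx _).2 (by
    have : x * (x⁻¹ * (e : V ≃ₗ[ZMod p] V) * x) * x⁻¹ = e := by group
    rw [this]; exact e.2)⟩
  left_inv e := Subtype.ext (by show x⁻¹ * (x * (e : V ≃ₗ[ZMod p] V) * x⁻¹) * x = e; group)
  right_inv e := Subtype.ext (by show x * (x⁻¹ * (e : V ≃ₗ[ZMod p] V) * x) * x⁻¹ = e; group)
  map_mul' e f := Subtype.ext (by
    show x * ((e : V ≃ₗ[ZMod p] V) * f) * x⁻¹ = (x * e * x⁻¹) * (x * f * x⁻¹); group)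

theorem cjE_coe (hx : ∀ y, y ∈ E ↔ x * y * x⁻¹ ∈ E) (e : E) :
    ((cjE hx e : E) : V ≃ₗ[ZMod p] V) = x * e * x⁻¹ := rfl

theorem map_center (α : MulAut E) : (center E).map (α : E →* E) = center E := by
  refine le_antisymm ?_ ?_
  · rintro _ ⟨z, hz, rfl⟩
    rw [Subgroup.mem_center_iff]
    intro g
    have := Subgroup.mem_center_iff.1 hz (α.symm g)
    have h2 := congrArg α this
    rw [map_mul, map_mul, MulEquiv.apply_symm_apply] at h2
    exact h2
  · intro z hz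
    refine ⟨α.symm z, Subgroup.mem_center_iff.2 fun g => ?_, MulEquiv.apply_symm_apply _ _⟩
    have := Subgroup.mem_center_iff.1 hz (α g)
    have h2 := congrArg α.symm this
    rw [map_mul, map_mul, MulEquiv.symm_apply_apply] at h2
    exact h2

/-- the automorphism of `E / Z(E)` induced by an automorphism of `E` -/
noncomputable def ind (α : MulAut E) : MulAut (E ⧸ center E) :=
  QuotientGroup.congr (center E) (center E) α (map_center α)

theorem ind_mk (α : MulAut E) (e : E) : ind α (e : E ⧸ center E) = (α e : E) := rfl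

/-- an automorphism of a perfect group which is trivial modulo the centre is trivial -/
theorem eq_one_of_ind (hperf : commutator E = ⊤) {α : MulAut E} (h : ind α = 1) : α = 1 := by
  have h1 : ∀ e : E, ∃ z ∈ center E, α e = e * z := by
    intro e
    have h2 : ind α (e : E ⧸ center E) = (e : E ⧸ center E) := by rw [h]; rfl
    rw [ind_mk] at h2
    exact ⟨e⁻¹ * α e, QuotientGroup.eq.1 h2.symm, by group⟩
  have h2 : commutator E ≤ (α : E →* E).eqLocus (MonoidHom.id E) := by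
    rw [commutator_eq_closure, Subgroup.closure_le]
    rintro _ ⟨e, f, rfl⟩
    obtain ⟨y, hy, hey⟩ := h1 e
    obtain ⟨z, hz, hfz⟩ := h1 f
    have hyc := fun g => (Subgroup.mem_center_iff.1 hy g)
    have hzc := fun g => (Subgroup.mem_center_iff.1 hz g)
    show α (e * f * e⁻¹ * f⁻¹) = e * f * e⁻¹ * f⁻¹
    rw [map_mul, map_mul, map_mul, map_inv, map_inv, hey, hfz]
    calc e * y * (f * z) * (e * y)⁻¹ * (f * z)⁻¹
        = e * (y * (f * z * y⁻¹)) * e⁻¹ * (f * z)⁻¹ := by group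
      _ = e * (f * z * y⁻¹ * y) * e⁻¹ * (f * z)⁻¹ := by rw [hyc (f * z * y⁻¹)]
      _ = e * f * (z * e⁻¹) * z⁻¹ * f⁻¹ := by group
      _ = e * f * (e⁻¹ * z) * z⁻¹ * f⁻¹ := by rw [hzc e⁻¹]
      _ = e * f * e⁻¹ * f⁻¹ := by group
  rw [hperf] at h2
  refine MulEquiv.ext fun e => ?_
  exact h2 (Subgroup.mem_top e)

end conj

/-- **The points of a component.** -/
theorem comp_points [Finite V] (E : Subgroup (V ≃ₗ[ZMod p] V)) (hE : Hg E) (hperf : commutator E = ⊤)
    (hna : ∃ x y : E ⧸ center E, x * y ≠ y * x) (k : ℕ) (hT : TBase (E ⧸ center E) k) :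
    ∃ u : Fin (k + 1) → V, (∀ j, Pure E (u j)) ∧ ∀ x : V ≃ₗ[ZMod p] V, (∀ y, y ∈ E ↔ x * y * x⁻¹ ∈ E) →
      (∀ j, FixAnn E x (u j)) → ∀ e ∈ E, x * e = e * x := by
  obtain ⟨u0, hu0⟩ := hE.ex
  have hH : (StA E u0).map (QuotientGroup.mk' (center E)) ≠ ⊤ := by
    intro htop
    have h1 : StA E u0 = ⊤ := by
      rw [eq_top_iff]
      intro e _
      have h2 : (e : E ⧸ center E) ∈ (StA E u0).map (QuotientGroup.mk' (center E)) := by
        rw [htop]; exact Subgroup.mem_top _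
      obtain ⟨f, hf, hfe⟩ := h2
      have h3 := QuotientGroup.eq.1 hfe
      have : e = f * (f⁻¹ * e) := by group
      rw [this]
      exact mul_mem hf (center_le_StA h3)
    have h2 := comm_of_StA hE hu0 h1
    obtain ⟨a, b, hab⟩ := hna
    obtain ⟨a, rfl⟩ := QuotientGroup.mk_surjective a
    obtain ⟨b, rfl⟩ := QuotientGroup.mk_surjective b
    apply hab
    rw [← QuotientGroup.mk_mul, ← QuotientGroup.mk_mul]
    congr 1
    exact Subtype.ext (h2 a a.2 b b.2)
  obtain ⟨t, ht⟩ := hT _ hH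
  choose e he using fun j => QuotientGroup.mk_surjective (t j)
  refine ⟨Fin.cons u0 fun j => (e j : V ≃ₗ[ZMod p] V) u0, ?_, ?_⟩
  · intro j
    refine Fin.cases ?_ (fun j => ?_) j
    · exact hu0
    · exact pure_smul hu0 _
  · intro x hx hfix
    have hf0 : FixAnn E x u0 := hfix 0
    have hf1 : ∀ j, FixAnn E x ((e j : V ≃ₗ[ZMod p] V) u0) := fun j => hfix j.succ
    have hxE : ∀ y ∈ E, x * y * x⁻¹ ∈ E := fun y hy => (hx y).1 hy
    have hxi : ∀ y ∈ E, x⁻¹ * y * x⁻¹⁻¹ ∈ E := by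
      intro y hy
      rw [inv_inv]
      refine (hx _).2 ?_
      have : x * (x⁻¹ * y * x) * x⁻¹ = y := by group
      rwa [this]
    -- membership in the stabiliser of the annihilator
    have hst : ∀ f : E, f ∈ StA E u0 ↔ cjE hx f ∈ StA E u0 := by
      intro f
      have key : ∀ a ∈ RR E, (a u0 = 0 ↔ (cj x⁻¹ a) u0 = 0) ∧
          ((cj x⁻¹ a) ((f : V ≃ₗ[ZMod p] V) u0) = 0 ↔ a ((cjE hx f : V ≃ₗ[ZMod p] V) u0) = 0) := by
        intro a ha
        have hb := cj_mem hxi ha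
        refine ⟨?_, ?_⟩
        · rw [hf0 _ hb, cj_apply, inv_inv, app_inv, app_inv]
        · have h1 := hf0 (cj x⁻¹ a * ((f : V ≃ₗ[ZMod p] V) : V →ₗ[ZMod p] V)) (mul_mem hb (mem_RR f.2))
          have h2 : (cj x⁻¹ a * ((f : V ≃ₗ[ZMod p] V) : V →ₗ[ZMod p] V)) u0 = (cj x⁻¹ a) ((f : V ≃ₗ[ZMod p] V) u0) := rfl
          rw [h2] at h1
          rw [h1]
          have h3 : x ((cj x⁻¹ a * ((f : V ≃ₗ[ZMod p] V) : V →ₗ[ZMod p] V)) (x⁻¹ u0)) =
              a ((cjE hx f : V ≃ₗ[ZMod p] V) u0) := by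
            rw [Module.End.mul_apply, cj_apply, app_inv, inv_inv]
            rfl
          rw [h3]
      constructor
      · intro hf a ha
        obtain ⟨h1, h2⟩ := key a ha
        exact h1.trans ((hf _ (cj_mem hxi ha)).trans h2)
      · intro hf a ha
        have hb := cj_mem hxE ha
        obtain ⟨h1, h2⟩ := key _ hb
        have h3 : cj x⁻¹ (cj x a) = a := by
          ext v
          rw [cj_apply, cj_apply, inv_app, inv_inv, inv_app]
        rw [h3] at h1 h2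
        exact h1.symm.trans ((hf _ hb).trans h2.symm)
    have hH1 : ∀ f : E, (f : E ⧸ center E) ∈ (StA E u0).map (QuotientGroup.mk' (center E)) ↔ f ∈ StA E u0 := by
      intro f
      constructor
      · rintro ⟨g, hg, hgf⟩
        have h3 := QuotientGroup.eq.1 hgf
        have : f = g * (g⁻¹ * f) := by group
        rw [this]
        exact mul_mem hg (center_le_StA h3)
      · exact fun hf => ⟨f, hf, rfl⟩
    have hone : ind (cjE hx) = 1 := by
      refine ht _ (fun h => ?_) (fun j => ?_)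
      · obtain ⟨f, rfl⟩ := QuotientGroup.mk_surjective h
        rw [ind_mk, hH1, hH1]
        exact hst f
      · rw [← he j, ind_mk, ← QuotientGroup.mk_inv, ← QuotientGroup.mk_mul, hH1]
        intro a ha
        -- `c = a e⁻¹`
        have hc : a * (((e j)⁻¹ : E) : V ≃ₗ[ZMod p] V) ∈ RR E := mul_mem ha (mem_RR ((e j)⁻¹).2)
        have hd := cj_mem hxi hc
        have h1 := hf1 j _ hd
        have h2 := hf0 (cj x⁻¹ (a * (((e j)⁻¹ : E) : V ≃ₗ[ZMod p] V)) * ((e j : V ≃ₗ[ZMod p] V) : V →ₗ[ZMod p] V))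
          (mul_mem hd (mem_RR (e j).2))
        have e1 : x ((cj x⁻¹ (a * (((e j)⁻¹ : E) : V ≃ₗ[ZMod p] V))) (x⁻¹ ((e j : V ≃ₗ[ZMod p] V) u0))) = a u0 := by
          rw [cj_apply, app_inv, inv_inv, app_inv, Module.End.mul_apply]
          congr 1
          exact inv_app _ _
        have e2 : x ((cj x⁻¹ (a * (((e j)⁻¹ : E) : V ≃ₗ[ZMod p] V)) *
            ((e j : V ≃ₗ[ZMod p] V) : V →ₗ[ZMod p] V)) (x⁻¹ u0)) =
            a ((((e j)⁻¹ * cjE hx (e j) : E) : V ≃ₗ[ZMod p] V) u0) := by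
          rw [Module.End.mul_apply, cj_apply, app_inv, inv_inv, Module.End.mul_apply]
          rfl
        rw [e1] at h1
        rw [e2] at h2
        rw [← h1, ← h2]
        rfl
    have h2 := eq_one_of_ind hperf hone
    intro f hf
    have h3 : cjE hx ⟨f, hf⟩ = ⟨f, hf⟩ := by rw [h2]; rfl
    have h4 : x * f * x⁻¹ = f := congrArg Subtype.val h3
    calc x * f = (x * f * x⁻¹) * x := by group
      _ = f * x := by rw [h4]

/-- **The vectors for the components.** -/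
theorem comp_vecs [Finite V] {t : ℕ} (E : Fin t → Subgroup (V ≃ₗ[ZMod p] V)) (hE : ∀ i, Hg (E i))
    (hcomm : ∀ i j, i ≠ j → ∀ x ∈ E i, ∀ y ∈ E j, x * y = y * x) (hperf : ∀ i, commutator (E i) = ⊤)
    (hna : ∀ i, ∃ x y : E i ⧸ center (E i), x * y ≠ y * x) (k : ℕ) (hT : ∀ i, TBase (E i ⧸ center (E i)) k)
    (hV : ∃ v : V, v ≠ 0) :
    ∃ v : Fin (k + 1) → V, (∀ j, v j ≠ 0) ∧ ∀ x : V ≃ₗ[ZMod p] V, (∀ i, ∀ y, y ∈ E i ↔ x * y * x⁻¹ ∈ E i) →
      (∀ j, x (v j) = v j) → ∀ i, ∀ e ∈ E i, x * e = e * x := by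
  choose u hu hfix using fun i => comp_points (E i) (hE i) (hperf i) (hna i) k (hT i)
  choose v hv hsame using fun j => common E hE hcomm (fun i => u i j) (fun i => hu i j) hV
  exact ⟨v, hv, fun x hx hxv i e he => hfix i x (hx i) (fun j =>
    fixAnn_of (fun y hy => (hx i y).1 hy) (hsame j i) (hxv j)) e he⟩

end Cfsg.Agent.H457.Bs
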